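import Cfsg.Agent.HeCent.Data

/-! Check (generated, owner: helper12). -/

set_option autoImplicit false
set_option maxRecDepth 1000000

namespace Cfsg.Agent.HeCent

open Cfsg.Agent.CosetEnum Cfsg.Agent.H90.Sift Cfsg.Agent.SiftX

theorem f0 : Nat.beq (fixN Cfsg.Agent.H90.SiftHe.P cz 2058 0 0) 42 = true := by decide +kernel

end Cfsg.Agent.HeCent
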