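import Cfsg.Agent.SiftX.Words
import Cfsg.Agent.CosetEnum.He.Simple
import Cfsg.Agent.CosetEnum.HeC.K2
import Cfsg.Agent.CosetEnum.HeC.K3
import Cfsg.Agent.H90.SiftHe.Chain
import Cfsg.Agent.HeCent.N0
import Cfsg.Agent.HeCent.C0
import Cfsg.Agent.HeCent.J0
import Cfsg.Agent.HeCent.J1
import Cfsg.Agent.HeCent.J2
import Cfsg.Agent.HeCent.F0

/-!
The centraliser of an involution of the Held group is a presented group of order 21504 (owner: helper12).
-/

set_option autoImplicit false
set_option maxRecDepth 1000000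

namespace Cfsg.Agent.HeCent

open Cfsg.Agent.CosetEnum Cfsg.Agent.CosetEnum.He Cfsg.Agent.H90.Sift Cfsg.Agent.SiftX Subgroup
open Cfsg.Agent.H90

/-- the abstract group -/
abbrev QX : Type := QG 3 HeCK3.iv HeCK3.RL

/-- its letters -/
abbrev qX : ℕ → QX := qg 3 HeCK3.iv HeCK3.RL

theorem UX : Univ qX 3 HeCK3.iv HeCK3.RL := univ_qg _ _ _

theorem bdX : Bd (⊤ : Subgroup QX) 21504 := by
  have g := UX.good
  rw [← UX.top]
  have h2 := (Bd.zero qX).cl (M := 14) HeCK2.cert g (by decide +kernel) (by decide +kernel) (by norm_num) rfl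
  exact h2.cl (M := 21504) HeCK3.cert g (by decide +kernel) (by decide +kernel) (by norm_num) rfl

instance : Finite QX := by
  have h : Finite (⊤ : Subgroup QX) := bdX.1
  exact Finite.of_equiv _ Subgroup.topEquiv.toEquiv

theorem card_le : Nat.card QX ≤ 21504 := by
  have h := bdX.2
  rwa [Subgroup.card_top] at h

/-- expressions of the letters -/
def ex : ℕ → ℕ
  | 1 => 2 * ca
  | 2 => 2 * ca + 1
  | 3 => 2 * cb
  | _ => 0

/-- the images of the letters -/
def hX {G : Type*} [Group G] (g : ℕ → G) : ℕ → G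
  | 1 => elt g ca
  | 2 => (elt g ca)⁻¹
  | 3 => elt g cb
  | _ => 1

theorem ex_hX {G : Type*} [Group G] (g : ℕ → G) (x : ℕ) : eltE g [ex x] = hX g x := by
  match x with
  | 0 => simp [ex, hX, eltE, elt, eltF]
  | 1 => 
    have e1 : 2 * ca % 2 = 0 := by omega
    have e2 : 2 * ca / 2 = ca := by omega
    simp only [ex, hX, eltE, e1, e2, if_true, mul_one]
  | 2 =>
    have e1 : (2 * ca + 1) % 2 = 1 := by omega
    have e2 : (2 * ca + 1) / 2 = ca := by omega
    simp [ex, hX, eltE, e1, e2]
  | 3 =>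
    have e1 : 2 * cb % 2 = 0 := by omega
    have e2 : 2 * cb / 2 = cb := by omega
    simp only [ex, hX, eltE, e1, e2, if_true, mul_one]
  | (n + 4) => simp [ex, hX, eltE, elt, eltF]

theorem rels : ∀ p ∈ HeCK3.RL, eqE SiftHe.P (SiftHe.lB.map fun t => t.1)
    (List.replicate p.2 (p.1.map ex)).flatten [] = true := by
  decide +kernel

theorem binv : eqE SiftHe.P (SiftHe.lB.map fun t => t.1) [2 * cb] [2 * cb + 1] = true := by decide +kernel

theorem comm_a : eqE SiftHe.P (SiftHe.lB.map fun t => t.1) [2 * ca, 2 * cz] [2 * cz, 2 * ca] = true := by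
  decide +kernel

theorem comm_b : eqE SiftHe.P (SiftHe.lB.map fun t => t.1) [2 * cb, 2 * cz] [2 * cz, 2 * cb] = true := by
  decide +kernel

theorem zsq : eqE SiftHe.P (SiftHe.lB.map fun t => t.1) [2 * cz, 2 * cz] [] = true := by decide +kernel

theorem zne : Nat.beq (runE SiftHe.P [2 * cz] 1) (runE SiftHe.P [] 1) = false := by decide +kernel

theorem expA : eqB (run SiftHe.P ca) (actW SiftHe.P wa) (SiftHe.lB.map fun t => t.1) = true := by decide +kernel

theorem expB : eqB (run SiftHe.P cb) (actW SiftHe.P wb) (SiftHe.lB.map fun t => t.1) = true := by decide +kernel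

section

variable {G : Type*} [Group G] [A : MulAction G (Fin SiftHe.P.m)] {g : ℕ → G}
  (h : LettersOK SiftHe.P g) (hx : ExP G SiftHe.P SiftHe.lB [])

include h hx

theorem good : Good (hX g) 3 HeCK3.iv HeCK3.RL := by
  have hb : elt g cb = (elt g cb)⁻¹ := by
    have := eqE_sound h hx binv
    simpa only [eltE_even, eltE_odd, eltE_nil, mul_one] using this
  refine ⟨fun x => ?_, fun x hx => ?_, fun p hp => ?_⟩
  · match x with
    | 0 => exact inv_one.symm
    | 1 => rfl
    | 2 => exact (inv_inv _).symm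
    | 3 => exact hb
    | (n + 4) => exact inv_one.symm
  · match x with
    | 0 => rfl
    | 1 => exact absurd hx (by decide)
    | 2 => exact absurd hx (by decide)
    | 3 => exact absurd hx (by decide)
    | (n + 4) => rfl
  · exact rel_of_eqE h hx (ex := ex) (fun x _ => ex_hX g x) (rels p hp)

theorem z_props : elt g cz * elt g cz = 1 ∧ elt g cz ≠ 1 ∧ elt g ca * elt g cz = elt g cz * elt g ca ∧
    elt g cb * elt g cz = elt g cz * elt g cb := by
  refine ⟨?_, ?_, ?_, ?_⟩
  · have := eqE_sound h hx zsq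
    simpa only [eltE_even, eltE_odd, eltE_nil, mul_one] using this
  · have := ne_of_run h (i := 1) (by decide +kernel) zne
    simpa only [eltE_even, eltE_odd, eltE_nil, mul_one] using this
  · have := eqE_sound h hx comm_a
    simpa only [eltE_even, eltE_odd, eltE_nil, mul_one] using this
  · have := eqE_sound h hx comm_b
    simpa only [eltE_even, eltE_odd, eltE_nil, mul_one] using this

end

/-! ### Chains -/

theorem ncovC : Cov (newB PC SiftHe.P wsC) 0 PC.m := Cov.of n0 rfl

section

variable {G : Type*} [Group G] [MulAction G (Fin PC.m)] {g : ℕ → G} (h : RA PC g)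

include h

theorem chainC : ChP PC (⊤ : Subgroup G) lC [] :=
  ⟨(show 1 < 2058 by norm_num), (lvS_sound h (fun _ _ => mem_top _) (b := 1) (show 1 < 2058 by norm_num) c0).1,
    ⟨(show 385 < 2058 by norm_num),
      (lvS_sound h (fun _ _ => mem_top _) (b := 385) (show 385 < 2058 by norm_num) c1).1, trivial⟩⟩

end

/-- the Held side -/
theorem he_side : ∃ z : GH, orderOf z = 2 ∧ Nat.card QX = 21504 ∧ Nonempty (QX ≃* centralizer ({z} : Set GH)) := by
  have hcard : Nat.card GH = 4030387200 := card_He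
  have hfin : Finite GH := Nat.finite_of_card_ne_zero (by rw [hcard]; norm_num)
  obtain ⟨A, letsk, cw, h1, h2, hA, h3k, h4, h5, h6, h7⟩ := (LH).ex
  obtain ⟨A', hRA⟩ := new_action (P := SiftHe.P) (Q := Cfsg.Agent.CosetEnum.HeT10.P) rfl A hA (ws := SiftHe.ws)
    (by decide +kernel) (by decide +kernel) (by decide +kernel) SiftHe.ncov
  have h : LettersOK SiftHe.P (newL gH SiftHe.ws) := letters_ok hRA
  obtain ⟨_, _, _, xB⟩ := SiftHe.concl hcard h
  set g := newL gH SiftHe.ws with hg
  obtain ⟨z1, z2, z3, z4⟩ := z_props h xB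
  have hgood := good h xB
  obtain ⟨φ, hφ⟩ := UX.univ GH _ hgood
  -- the action of the abstract group
  obtain ⟨A2, hA2⟩ := new_action (P := PC) (Q := SiftHe.P) rfl A' (RA.acts hRA) (ws := wsC)
    (by decide +kernel) (by decide +kernel) (by decide +kernel) ncovC
  have ea : elt g ca = (wa.map g).prod := elt_eq_prod hRA xB (by decide +kernel) expA
  have eb : elt g cb = (wb.map g).prod := elt_eq_prod hRA xB (by decide +kernel) expB
  have hφ1 : φ (qX 1) = elt g ca := hφ 1
  have hφ3 : φ (qX 3) = elt g cb := hφ 3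
  have hlet : ∀ x < 8, φ (newL qX wsX x) = newL g wsC x := by
    intro x hx
    interval_cases x <;> simp [newL, wsX, wsC, hφ1, hφ3, ea, eb]
  let AX : MulAction QX (Fin PC.m) := MulAction.compHom _ φ
  have hAX : ∀ (x : QX) (i : Fin PC.m), x • i = φ x • i := fun _ _ => rfl
  have hRX : RA PC (newL qX wsX) := by
    intro x hx i
    rw [← hA2 x hx i, ← hlet x hx, hAX, map_inv]
  have hc := chainC hRX
  have hprod : (lC.map fun t => t.2.2).prod = 21504 := by decide +kernel
  have hxX : ExP QX PC lC [] := hc.exact' (by rw [hprod]; exact card_le)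
  have hinj : Function.Injective φ := injective_of_exP hxX φ hAX
  have hge : 21504 ≤ Nat.card QX := by
    rw [← hprod]
    refine (ChP.le hc).trans ?_
    refine (Nat.card_mono (Set.toFinite _) (fun x hx => hx.1)).trans ?_
    rw [SetLike.coe_sort_coe, Subgroup.card_top]
  -- the centraliser
  have hpt : MulAction.IsPretransitive GH (Fin SiftHe.P.m) :=
    transitive_of_lev (SiftHe.levB0 h).1 rfl (show 1902 < 2058 by norm_num)
  have hbs : (fbs SiftHe.P SiftHe.lB SiftHe.ltB).map Fin.val = SiftHe.bs := by rw [fbs_map]; rfl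
  have e0 := cnjS_sound h (bs := fbs SiftHe.P SiftHe.lB SiftHe.ltB) (by rw [hbs]; exact j0)
  have e1 := cnjS_sound h (bs := fbs SiftHe.P SiftHe.lB SiftHe.ltB) (by rw [hbs]; exact j1)
  have e2 := cnjS_sound h (bs := fbs SiftHe.P SiftHe.lB SiftHe.ltB) (by rw [hbs]; exact j2)
  obtain ⟨⟨S, hS, hS'⟩, _⟩ := (CnjC.append (CnjC.append e0 e1) e2 : CnjC SiftHe.P _ 1902 _ _ _ _)
  have hle : Nat.card (centralizer ({elt g cz} : Set GH)) ≤ 21504 := by
    have e3 := card_centralizer_le (m := SiftHe.P.m) (elt g cz) (⟨1902, show 1902 < 2058 by norm_num⟩ : Fin SiftHe.P.m) hS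
      (fun x hx => ⟨(hS' x hx).2.2.1, (hS' x hx).2.2.2 _ rfl⟩)
    have e4 : Nat.card (MulAction.fixedBy (Fin SiftHe.P.m) (elt g cz)) = 42 :=
      (card_fixedBy h cz).trans (beq_true f0)
    rw [e4, hcard, show SiftHe.P.m = 2058 from rfl] at e3
    omega
  have hmem : ∀ x : QX, φ x ∈ centralizer ({elt g cz} : Set GH) := by
    intro x
    have h8 : x ∈ Cl qX 3 := by rw [UX.top]; exact mem_top _
    have h9 : Cl qX 3 ≤ (centralizer ({elt g cz} : Set GH)).comap φ := by
      unfold Cl
      rw [closure_le]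
      rintro _ ⟨y, hy, rfl⟩
      have hy : isLet 3 y = true := hy
      rw [isLet_iff] at hy
      rw [SetLike.mem_coe, mem_comap, mem_centralizer_singleton_iff, hφ]
      match y, hy with
      | 1, _ => exact z3
      | 2, _ =>
        show (elt g ca)⁻¹ * elt g cz = elt g cz * (elt g ca)⁻¹
        rw [inv_mul_eq_iff_eq_mul, ← mul_assoc, z3, mul_inv_cancel_right]
      | 3, _ => exact z4
      | (n + 4), h => omega
    exact h9 h8
  refine ⟨elt g cz, orderOf_eq_prime (by rw [pow_two]; exact z1) z2, le_antisymm card_le hge, ?_⟩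
  have hbij : Function.Bijective (φ.codRestrict _ hmem) := by
    apply Function.Injective.bijective_of_nat_card_le
    · intro x y hxy
      exact hinj (congrArg Subtype.val hxy)
    · exact hle.trans hge
  exact ⟨MulEquiv.ofBijective _ hbij⟩

end Cfsg.Agent.HeCent
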