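import Cfsg.Agent.HeCent.Data

/-! Check (generated, owner: helper12). -/

set_option autoImplicit false
set_option maxRecDepth 1000000

namespace Cfsg.Agent.HeCent

open Cfsg.Agent.CosetEnum Cfsg.Agent.H90.Sift Cfsg.Agent.SiftX

theorem v0 : lvS PV [] 1 mV0 15 0x7fff 32 16 0x932024c249a4990026026412c804b0496496400580590032000c0008000 0 = true := by decide +kernel

theorem v1 : lvS PV [1] 5 mV1 24 0xffffff 32 14 0x4996990000120934cb0002490034cb00924900b2d30000092cb4c900049205a65a012492019699000000 0 = true := by decide +kernel

theorem v2 : lvS PV [5, 1] 11 mV2 42 0x3ffffffffff 32 12 0x9a64b4c125a49964b0c92d24cb2400034d325a01965a6492c000b2d324900005a4cb2c00032d26590000934cb24001964b49a000000000009693259249 0 = true := by decide +kernel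

theorem v3 : lvS PV [11, 5, 1] 23 mV3 54 0x3fffffffffffff 32 8 0xcb2596926992c00002cb25a4d200164b2d24d32400006596492c90000000000000132cb4d34932490000d324b24964325a699259692 0 = true := by decide +kernel

end Cfsg.Agent.HeCent
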