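import Cfsg.Agent.HeCent.HeSide
import Cfsg.Agent.HeCent.V0

/-!
The centraliser of a transvection in `SL₅(2)` (owner: helper12).
-/

set_option autoImplicit false
set_option maxRecDepth 1000000

namespace Cfsg.Agent.HeCent

open Cfsg.Agent.CosetEnum Cfsg.Agent.H90.Sift Cfsg.Agent.SiftX Subgroup Matrix

/-- the group -/
abbrev SL5 : Type := SpecialLinearGroup (Fin 5) (ZMod 2)

/-- matrices -/
abbrev M5 : Type := Matrix (Fin 5) (Fin 5) (ZMod 2)

/-- the underlying matrix -/
def cm (M : SL5) : M5 := M.1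

theorem cm_mul (M N : SL5) : cm (M * N) = cm M * cm N := rfl

theorem cm_one : cm 1 = 1 := rfl

theorem cm_inj {M N : SL5} (h : cm M = cm N) : M = N := Subtype.ext h

theorem cm_mul_inv (M : SL5) : cm M * cm M⁻¹ = 1 := by rw [← cm_mul, mul_inv_cancel, cm_one]

theorem cm_inv_mul (M : SL5) : cm M⁻¹ * cm M = 1 := by rw [← cm_mul, inv_mul_cancel, cm_one]

/-- numbers of vectors -/
def enc : (Fin 5 → ZMod 2) ≃ Fin 32 := (finFunctionFinEquiv : (Fin 5 → Fin 2) ≃ Fin (2 ^ 5))

/-- right multiplication on the numbers of the row vectors -/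
def vm (N : M5) (i : Fin 32) : Fin 32 := enc (vecMul (enc.symm i) N)

theorem vm_one (i : Fin 32) : vm 1 i = i := by
  unfold vm
  rw [vecMul_one, Equiv.apply_symm_apply]

theorem vm_mul (N N' : M5) (i : Fin 32) : vm (N * N') i = vm N' (vm N i) := by
  unfold vm
  rw [Equiv.symm_apply_apply, vecMul_vecMul]

/-- the action on row vectors -/
@[reducible] def actV : MulAction SL5 (Fin PV.m) where
  smul M i := vm (cm M⁻¹) i
  one_smul i := by
    show vm (cm 1⁻¹) i = i
    rw [inv_one, cm_one]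
    exact vm_one i
  mul_smul M N i := by
    show vm (cm (M * N)⁻¹) i = vm (cm M⁻¹) (vm (cm N⁻¹) i)
    rw [_root_.mul_inv_rev, cm_mul]
    exact vm_mul _ _ i

/-- the matrices -/
def ma : Matrix (Fin 5) (Fin 5) (ZMod 2) :=
  !![1, 1, 0, 0, 0; 0, 1, 0, 0, 0; 0, 0, 0, 1, 0; 0, 0, 0, 0, 1; 0, 0, 1, 1, 0]

def mai : Matrix (Fin 5) (Fin 5) (ZMod 2) :=
  !![1, 1, 0, 0, 0; 0, 1, 0, 0, 0; 0, 0, 1, 0, 1; 0, 0, 1, 0, 0; 0, 0, 0, 1, 0]

def mb : Matrix (Fin 5) (Fin 5) (ZMod 2) :=
  !![1, 0, 1, 0, 0; 0, 1, 0, 0, 0; 0, 0, 1, 0, 0; 0, 0, 1, 1, 0; 0, 1, 1, 0, 1]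

theorem ma_mai : ma * mai = 1 := by decide +kernel

theorem mb_mb : mb * mb = 1 := by decide +kernel

theorem det_one_of {M N : Matrix (Fin 5) (Fin 5) (ZMod 2)} (h : M * N = 1) : M.det = 1 := by
  have h1 := congrArg det h
  rw [det_mul, det_one] at h1
  have h2 : ∀ x y : ZMod 2, x * y = 1 → x = 1 := by decide
  exact h2 _ _ h1

def sa : SL5 := ⟨ma, det_one_of ma_mai⟩

def sb : SL5 := ⟨mb, det_one_of mb_mb⟩

theorem cm_sa : cm sa = ma := rfl

theorem cm_sb : cm sb = mb := rfl

theorem sa_inv : cm sa⁻¹ = mai := by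
  have h1 := cm_mul_inv sa
  have h2 : mai * ma = 1 := by decide +kernel
  rw [cm_sa] at h1
  calc cm sa⁻¹ = (mai * ma) * cm sa⁻¹ := by rw [h2, one_mul]
    _ = mai := by rw [mul_assoc, h1, mul_one]

theorem sb_inv : (sb⁻¹ : SL5) = sb := by
  rw [inv_eq_iff_mul_eq_one]
  apply cm_inj
  rw [cm_mul, cm_one, cm_sb]
  exact mb_mb

/-- the letters -/
def fX : ℕ → SL5
  | 1 => sa
  | 2 => sa⁻¹
  | 3 => sb
  | _ => 1

theorem acts_a : ∀ i : Fin 32, ((vm ma i : Fin 32) : ℕ) = act PV 1 i := by decide +kernel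

theorem acts_ai : ∀ i : Fin 32, ((vm mai i : Fin 32) : ℕ) = act PV 2 i := by decide +kernel

theorem acts_b : ∀ i : Fin 32, ((vm mb i : Fin 32) : ℕ) = act PV 3 i := by decide +kernel

theorem inv_smul_V (M : SL5) (i : Fin 32) : (letI := actV; (M⁻¹ • (show Fin PV.m from i) : Fin PV.m)) = vm (cm M) i := by
  show vm (cm M⁻¹⁻¹) i = _
  rw [_root_.inv_inv]

theorem acts_f : @Acts SL5 _ PV actV fX [1, 2, 3] := by
  let _ := actV
  intro x hx i
  simp only [List.mem_cons, List.not_mem_nil, or_false] at hx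
  rcases hx with rfl | rfl | rfl
  · refine (congrArg Fin.val (inv_smul_V _ i)).trans ?_
    exact acts_a i
  · refine (congrArg Fin.val (inv_smul_V _ i)).trans ?_
    show ((vm (cm sa⁻¹) i : Fin 32) : ℕ) = _
    rw [sa_inv]
    exact acts_ai i
  · refine (congrArg Fin.val (inv_smul_V _ i)).trans ?_
    exact acts_b i

theorem faithful_V {M : SL5} (h : ∀ i : Fin 32, vm (cm M) i = i) : M = 1 := by
  apply cm_inj
  rw [cm_one]
  apply Matrix.ext_of_single_vecMul
  intro j
  have h1 := h (enc (Pi.single j 1))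
  unfold vm at h1
  rw [Equiv.symm_apply_apply, enc.injective.eq_iff] at h1
  rw [h1, vecMul_one]

theorem relsV : ∀ p ∈ HeCK3.RL, (List.range 32).all (fun i =>
    Nat.beq (actW PV (List.replicate p.2 p.1).flatten i) i) = true := by decide +kernel

theorem goodV : Good fX 3 HeCK3.iv HeCK3.RL := by
  refine ⟨fun x => ?_, fun x hx => ?_, fun p hp => ?_⟩
  · match x with
    | 0 => exact inv_one.symm
    | 1 => rfl
    | 2 => exact (inv_inv _).symm
    | 3 => exact sb_inv.symm
    | (n + 4) => exact inv_one.symm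
  · match x with
    | 0 => rfl
    | 1 => exact absurd hx (by decide)
    | 2 => exact absurd hx (by decide)
    | 3 => exact absurd hx (by decide)
    | (n + 4) => rfl
  · have h1 : ((p.1.map fX).prod) ^ p.2 = (((List.replicate p.2 p.1).flatten).map fX).prod := by
      generalize p.2 = n
      induction n with
      | zero => simp
      | succ n ih => rw [List.replicate_succ, List.flatten_cons, List.map_append, List.prod_append, pow_succ', ih]
    rw [h1]
    apply faithful_V
    intro i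
    rw [← inv_smul_V, ← val_inv]
    apply Fin.ext
    have hlet : ∀ p ∈ HeCK3.RL, ∀ x ∈ (List.replicate p.2 p.1).flatten, x ∈ [1, 2, 3] := by decide +kernel
    let _ := actV
    refine (acts_f.word (hlet p hp) _).trans ?_
    have h2 := relsV p hp
    rw [List.all_eq_true] at h2
    exact beq_true (h2 _ (List.mem_range.2 i.2))

/-! ### The bound for the centraliser -/

section

variable {s : SL5} (hs : cm s = transvection 0 1 1)

include hs

theorem entries {M : SL5} (hM : M ∈ centralizer ({s} : Set SL5)) :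
    (∀ i, i ≠ 0 → cm M i 0 = 0) ∧ (∀ j, j ≠ 1 → cm M 1 j = 0) ∧ cm M 0 0 = 1 ∧ cm M 1 1 = 1 := by
  have h1 : cm M * cm s = cm s * cm M := by
    rw [← cm_mul, ← cm_mul, mem_centralizer_singleton_iff.1 hM]
  rw [hs, transvection, mul_add, add_mul, mul_one, one_mul, add_right_inj] at h1
  have h2 : ∀ i j, (cm M * (single 0 1 1 : M5)) i j = ((single 0 1 1 : M5) * cm M) i j := fun i j => by rw [h1]
  have h3 : ∀ i, i ≠ 0 → cm M i 0 = 0 := by
    intro i hi
    have h4 := h2 i 1
    rw [mul_single_apply_same, mul_one, single_mul_apply_of_ne _ _ _ _ _ hi] at h4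
    exact h4
  have h5 : ∀ j, j ≠ 1 → cm M 1 j = 0 := by
    intro j hj
    have h4 := h2 0 j
    rw [single_mul_apply_same, one_mul, mul_single_apply_of_ne _ _ _ _ _ hj] at h4
    exact h4.symm
  have h6 : cm M 0 0 = cm M 1 1 := by
    have h4 := h2 0 1
    rw [mul_single_apply_same, mul_one, single_mul_apply_same, one_mul] at h4
    exact h4
  have h7 : cm M 0 0 ≠ 0 := by
    intro h8
    have h9 := congrFun (congrFun (cm_inv_mul M) 0) 0
    rw [mul_apply, Fin.sum_univ_succ, one_apply_eq, h8, mul_zero, zero_add] at h9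
    have h10 : ∀ i : Fin 4, cm M i.succ 0 = 0 := fun i => h3 _ (Fin.succ_ne_zero i)
    simp [h10] at h9
  have h8 : ∀ x : ZMod 2, x ≠ 0 → x = 1 := by decide
  exact ⟨h3, h5, h8 _ h7, by rw [← h6]; exact h8 _ h7⟩

/-- the block of a matrix of the centraliser -/
def blk (M : SL5) : Matrix (Fin 3) (Fin 3) (ZMod 2) := fun i j => cm M i.succ.succ j.succ.succ

theorem blk_mul {M N : SL5} (hM : M ∈ centralizer ({s} : Set SL5)) (hN : N ∈ centralizer ({s} : Set SL5)) :
    blk (M * N) = blk M * blk N := by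
  ext i j
  show cm (M * N) i.succ.succ j.succ.succ = _
  rw [cm_mul, mul_apply, Fin.sum_univ_succ, Fin.sum_univ_succ, mul_apply]
  have h1 : cm M i.succ.succ 0 = 0 := (entries hs hM).1 _ (Fin.succ_ne_zero _)
  have h2 : cm N (Fin.succ 0) j.succ.succ = 0 := by
    refine (entries hs hN).2.1 _ ?_
    intro h
    exact Fin.succ_ne_zero j (Fin.succ_injective _ h)
  rw [h1, h2, zero_mul, mul_zero, zero_add, zero_add]
  rfl

/-- the data of an element of the centraliser -/
def dat (M : centralizer ({s} : Set SL5)) : (Fin 4 → ZMod 2) × (Fin 3 → ZMod 2) × GL (Fin 3) (ZMod 2) :=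
  (fun j => cm M.1 0 j.succ, fun i => cm M.1 i.succ.succ 1, ⟨blk M.1, blk (M⁻¹).1,
    by
      have h1 := blk_mul hs M.2 (M⁻¹).2
      rw [← h1]
      rw [show (M.1 * (M⁻¹).1 : SL5) = 1 from mul_inv_cancel M.1]
      ext i j
      show cm 1 i.succ.succ j.succ.succ = _
      rw [cm_one, one_apply, one_apply]
      simp [Fin.succ_inj],
    by
      have h1 := blk_mul hs (M⁻¹).2 M.2
      rw [← h1]
      rw [show ((M⁻¹).1 * M.1 : SL5) = 1 from inv_mul_cancel M.1]
      ext i j
      show cm 1 i.succ.succ j.succ.succ = _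
      rw [cm_one, one_apply, one_apply]
      simp [Fin.succ_inj]⟩)

theorem dat_inj : Function.Injective (dat hs) := by
  intro M N h
  simp only [dat, Prod.mk.injEq, Units.mk.injEq] at h
  obtain ⟨h1, h2, h3, _⟩ := h
  obtain ⟨a1, a2, a3, a4⟩ := entries hs M.2
  obtain ⟨b1, b2, b3, b4⟩ := entries hs N.2
  apply Subtype.ext
  apply cm_inj
  ext i j
  refine Fin.cases ?_ (fun i => ?_) i
  · refine Fin.cases ?_ (fun j => ?_) j
    · rw [a3, b3]
    · exact congrFun h1 j
  · refine Fin.cases ?_ (fun j => ?_) j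
    · rw [a1 _ (Fin.succ_ne_zero _), b1 _ (Fin.succ_ne_zero _)]
    · refine Fin.cases ?_ (fun i => ?_) i
      · refine Fin.cases ?_ (fun j => ?_) j
        · exact a4.trans b4.symm
        · have h4 : (j.succ.succ : Fin 5) ≠ 1 := fun h => Fin.succ_ne_zero j (Fin.succ_injective _ h)
          exact (a2 _ h4).trans (b2 _ h4).symm
      · refine Fin.cases ?_ (fun j => ?_) j
        · exact congrFun h2 i
        · exact congrFun (congrFun h3 i) j

theorem card_cent_le : Nat.card (centralizer ({s} : Set SL5)) ≤ 21504 := by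
  have h1 := Nat.card_le_card_of_injective _ (dat_inj hs)
  refine h1.trans (le_of_eq ?_)
  rw [Nat.card_prod, Nat.card_prod, card_GL_field, Nat.card_fun, Nat.card_fun]
  simp [Fin.prod_univ_succ]

end

theorem chainV {G : Type*} [Group G] [MulAction G (Fin PV.m)] {g : ℕ → G} (h : RA PV g) :
    ChP PV (⊤ : Subgroup G) lV [] :=
  ⟨(show 1 < 32 by norm_num), (lvS_sound h (fun _ _ => mem_top _) (b := 1) (show 1 < 32 by norm_num) v0).1,
    ⟨(show 5 < 32 by norm_num), (lvS_sound h (fun _ _ => mem_top _) (b := 5) (show 5 < 32 by norm_num) v1).1,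
    ⟨(show 11 < 32 by norm_num), (lvS_sound h (fun _ _ => mem_top _) (b := 11) (show 11 < 32 by norm_num) v2).1,
    ⟨(show 23 < 32 by norm_num), (lvS_sound h (fun _ _ => mem_top _) (b := 23) (show 23 < 32 by norm_num) v3).1,
      trivial⟩⟩⟩⟩

theorem idV : ∀ i : Fin 32, act PV 0 i = i ∧ act PV 4 i = act PV 3 i ∧ act PV 5 i = i ∧ act PV 6 i = i ∧
    act PV 7 i = i := by decide +kernel

/-- the linear side -/
theorem sl_side (hX : Nat.card QX = 21504) {s : SL5} (hs : cm s = transvection 0 1 1) :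
    Nonempty (QX ≃* centralizer ({s} : Set SL5)) := by
  obtain ⟨φ, hφ⟩ := UX.univ SL5 _ goodV
  let _ := actV
  let AX : MulAction QX (Fin PV.m) := MulAction.compHom _ φ
  have hAX : ∀ (x : QX) (i : Fin PV.m), x • i = φ x • i := fun _ _ => rfl
  have hφ1 : φ (qX 1) = sa := hφ 1
  have hφ3 : φ (qX 3) = sb := hφ 3
  have hRX : RA PV (newL qX wsX) := by
    intro x hx i
    obtain ⟨i0, i4, i5, i6, i7⟩ := idV i
    have e1 : (((sa)⁻¹ • i : Fin PV.m) : ℕ) = act PV 1 i := acts_f 1 (by simp) i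
    have e2 : (((sa⁻¹)⁻¹ • i : Fin PV.m) : ℕ) = act PV 2 i := acts_f 2 (by simp) i
    have e3 : (((sb)⁻¹ • i : Fin PV.m) : ℕ) = act PV 3 i := acts_f 3 (by simp) i
    rw [hAX, map_inv]
    interval_cases x
    · rw [show newL qX wsX 0 = 1 from rfl, map_one, inv_one, one_smul]; exact i0.symm
    · rw [show newL qX wsX 1 = qX 1 by simp [newL, wsX], hφ1]; exact e1
    · rw [show newL qX wsX 2 = (qX 1)⁻¹ by simp [newL, wsX], map_inv, hφ1]; exact e2
    · rw [show newL qX wsX 3 = qX 3 by simp [newL, wsX], hφ3]; exact e3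
    · rw [show newL qX wsX 4 = (qX 3)⁻¹ by simp [newL, wsX], map_inv, hφ3, sb_inv]; exact e3.trans i4.symm
    · rw [show newL qX wsX 5 = 1 by simp [newL, wsX], map_one, inv_one, one_smul]; exact i5.symm
    · rw [show newL qX wsX 6 = 1 by simp [newL, wsX], map_one, inv_one, one_smul]; exact i6.symm
    · rw [show newL qX wsX 7 = 1 by simp [newL, wsX], map_one, inv_one, one_smul]; exact i7.symm
  have hc := chainV hRX
  have hprod : (lV.map fun t => t.2.2).prod = 21504 := by decide +kernel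
  have hxX : ExP QX PV lV [] := hc.exact' (by rw [hprod]; exact card_le)
  have hinj : Function.Injective φ := injective_of_exP hxX φ hAX
  have ca : sa * s = s * sa := by
    apply cm_inj
    rw [cm_mul, cm_mul, hs, cm_sa]
    decide +kernel
  have cb : sb * s = s * sb := by
    apply cm_inj
    rw [cm_mul, cm_mul, hs, cm_sb]
    decide +kernel
  have hmem : ∀ x : QX, φ x ∈ centralizer ({s} : Set SL5) := by
    intro x
    have h8 : x ∈ Cl qX 3 := by rw [UX.top]; exact mem_top _
    have h9 : Cl qX 3 ≤ (centralizer ({s} : Set SL5)).comap φ := by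
      unfold Cl
      rw [closure_le]
      rintro _ ⟨y, hy, rfl⟩
      have hy : isLet 3 y = true := hy
      rw [isLet_iff] at hy
      rw [SetLike.mem_coe, mem_comap, mem_centralizer_singleton_iff, hφ]
      match y, hy with
      | 1, _ => exact ca
      | 2, _ =>
        show sa⁻¹ * s = s * sa⁻¹
        rw [inv_mul_eq_iff_eq_mul, ← mul_assoc, ca, mul_inv_cancel_right]
      | 3, _ => exact cb
      | (n + 4), h => omega
    exact h9 h8
  have hbij : Function.Bijective (φ.codRestrict _ hmem) := by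
    apply Function.Injective.bijective_of_nat_card_le
    · intro x y hxy
      exact hinj (congrArg Subtype.val hxy)
    · rw [hX]
      exact card_cent_le hs
  exact ⟨MulEquiv.ofBijective _ hbij⟩

end Cfsg.Agent.HeCent
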